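import Cfsg.Agent.H428.OT.ATab
import Cfsg.Agent.H428.OT.ATwo
import Cfsg.Agent.H175.OT.SubA

/-!
# S2539, part 5: the facts `SubF`, `NsA2` for a short `A₂` in `F₄` (helper428)

* `subA2`, `nsA2` : `S_F = {±a, ±c, ±d}`, `d = c - a`, short roots of `F₄`.
-/

set_option autoImplicit false
set_option linter.unusedSectionVars false

namespace Cfsg.Agent.H428.OT

open Subgroup
open Cfsg Cfsg.Lie Cfsg.Lie.ChevalleyDatum
open Cfsg.Agent.ChevalleyStructure Cfsg.Agent.ChevalleyStructure.Elts Cfsg.Agent.ChevalleyStructure.NPerm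
open Cfsg.Agent.H412.OT Cfsg.Agent.H46.MS Cfsg.Agent.H186.OT Lin

universe u

variable {D : ChevalleyDatum} {K : Type u} [Field K]

theorem DF_A2 {F : Subgroup (GL D.Idx K)} {a b c : ℕ} (hS : SF D K F = {a, b, c, D.neg a, D.neg b, D.neg c}) :
    DF D K F = DA D K a b c := by
  unfold DF
  rw [hS]
  apply le_antisymm
  · refine iSup₂_le fun r hr => ?_
    simp only [Set.mem_insert_iff, Set.mem_singleton_iff] at hr
    rcases hr with rfl | rfl | rfl | rfl | rfl | rfl
    · exact rt_le_DA (i := 0) (j := 1) (by decide)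
    · exact rt_le_DA (i := 1) (j := 2) (by decide)
    · exact rt_le_DA (i := 0) (j := 2) (by decide)
    · exact rt_le_DA (i := 1) (j := 0) (by decide)
    · exact rt_le_DA (i := 2) (j := 1) (by decide)
    · exact rt_le_DA (i := 2) (j := 0) (by decide)
  · have key : ∀ r ∈ ({a, b, c, D.neg a, D.neg b, D.neg c} : Set ℕ), D.rootSubgroup K r ≤
        ⨆ r ∈ ({a, b, c, D.neg a, D.neg b, D.neg c} : Set ℕ), D.rootSubgroup K r := fun r hr =>
      le_iSup₂ (f := fun r (_ : r ∈ ({a, b, c, D.neg a, D.neg b, D.neg c} : Set ℕ)) => D.rootSubgroup K r) r hr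
    unfold DA
    exact sup_le (sup_le (sup_le (sup_le (sup_le (key _ (by simp)) (key _ (by simp))) (key _ (by simp)))
      (key _ (by simp))) (key _ (by simp))) (key _ (by simp))

theorem coe_pow3 (A : Matrix.SpecialLinearGroup (Fin 3) K) :
    ((A * A * A : Matrix.SpecialLinearGroup (Fin 3) K) : Matrix (Fin 3) (Fin 3) K) =
      (A : Matrix (Fin 3) (Fin 3) K) * A * A := rfl

theorem center_cube {z : Matrix.SpecialLinearGroup (Fin 3) K} (hz : z ∈ center (Matrix.SpecialLinearGroup (Fin 3) K)) :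
    z * z * z = 1 := by
  obtain ⟨r, hr, e⟩ := Matrix.SpecialLinearGroup.mem_center_iff.1 hz
  apply slext
  rw [coe_pow3, cone, ← e, ← map_mul, ← map_mul]
  have h1 : r * r * r = 1 := by
    rw [← hr, Fintype.card_fin]
    ring
  rw [h1, map_one]

/-- the centraliser of the torus of `DA` -/
theorem Pi.mem_tor_of_comm [Fintype K] {hD : InList D} {a b c : ℕ}
    {π : Matrix.SpecialLinearGroup (Fin 3) K →* GL D.Idx K} (P : Pi hD a b c π) (hK : 13 ≤ Fintype.card K)
    {x : GL D.Idx K} (hx : x ∈ DA D K a b c ⊔ D.diagonalSubgroup K)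
    (hc : ∀ t ∈ D.diagonalSubgroup K, t ∈ DA D K a b c → x * t = t * x) : x ∈ D.diagonalSubgroup K := by
  obtain ⟨A, t, ht, rfl⟩ := P.mem_sup hx
  obtain ⟨γ, hγ⟩ := H175.OT.exists_gen K
  have h6 : (γ : K) ^ 6 ≠ 1 := by
    intro h6
    have h1 := hγ 6 (by exact_mod_cast h6)
    have h2 := Int.le_of_dvd (by norm_num) h1
    omega
  have h01 : (0 : Fin 3) ≠ 1 := by decide
  set δ := Matrix.SpecialLinearGroup.diag2n h01 (γ : K) γ.ne_zero with hδ
  have h1 := hc (π δ) (P.diag2n_mem _ _ _) (P.pi_mem _)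
  have h2 : t * π δ = π δ * t := H460.OT.diag_comm hD ht (P.diag2n_mem _ _ _)
  have h3 : π (A * δ) = π (δ * A) := by
    rw [mul_assoc, h2, ← mul_assoc, ← mul_assoc] at h1
    rw [map_mul, map_mul]
    exact mul_right_cancel h1
  have h4 : A * δ * (δ * A)⁻¹ ∈ center (Matrix.SpecialLinearGroup (Fin 3) K) := P.ker (by
    rw [MonoidHom.mem_ker, map_mul, map_inv, h3, mul_inv_cancel])
  obtain ⟨z, hz⟩ : ∃ z, z = A * δ * (δ * A)⁻¹ := ⟨_, rfl⟩
  rw [← hz] at h4
  have h5 : A * δ = z * (δ * A) := by rw [hz]; group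
  have hz3 := center_cube h4
  have hzc : ∀ g, g * z = z * g := mem_center_iff.1 h4
  have h7 : A * (δ * δ * δ) = (δ * δ * δ) * A := by
    calc A * (δ * δ * δ) = (A * δ) * δ * δ := by group
      _ = (z * (δ * A)) * δ * δ := by rw [h5]
      _ = z * δ * (A * δ) * δ := by group
      _ = z * δ * (z * (δ * A)) * δ := by rw [h5]
      _ = z * (δ * z) * δ * (A * δ) := by group
      _ = z * (δ * z) * δ * (z * (δ * A)) := by rw [h5]
      _ = z * (z * δ) * δ * (z * (δ * A)) := by rw [hzc δ]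
      _ = z * z * (δ * δ * z) * (δ * A) := by group
      _ = z * z * (z * (δ * δ)) * (δ * A) := by rw [hzc (δ * δ)]
      _ = (z * z * z) * (δ * δ * δ * A) := by group
      _ = δ * δ * δ * A := by rw [hz3, one_mul]
  have h8 : toG A ∈ Dg K := by
    have hco : ((δ * δ * δ : Matrix.SpecialLinearGroup (Fin 3) K) : Matrix (Fin 3) (Fin 3) K) =
        Matrix.diagonal ![(γ : K) ^ 3, ((γ : K)⁻¹) ^ 3, 1] := by
      rw [coe_pow3, hδ]
      show Matrix.diagonal _ * Matrix.diagonal _ * Matrix.diagonal _ = _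
      rw [Matrix.diagonal_mul_diagonal, Matrix.diagonal_mul_diagonal]
      congr 1
      funext i
      fin_cases i
      · simp; ring
      · simp; ring
      · simp
    have h9 := congrArg (fun X : Matrix.SpecialLinearGroup (Fin 3) K => (X : Matrix (Fin 3) (Fin 3) K)) h7
    simp only [cmul A, cmul _ A, hco] at h9
    have hγ0 := γ.ne_zero
    have n1 : (γ : K) ^ 3 ≠ 1 := by
      intro h
      apply h6
      calc (γ : K) ^ 6 = ((γ : K) ^ 3) ^ 2 := by ring
        _ = 1 := by rw [h, one_pow]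
    have n2 : ((γ : K)⁻¹) ^ 3 ≠ 1 := by
      rw [inv_pow, Ne, inv_eq_one]
      exact n1
    have n3 : (γ : K) ^ 3 ≠ ((γ : K)⁻¹) ^ 3 := by
      intro h
      apply h6
      rw [inv_pow] at h
      calc (γ : K) ^ 6 = (γ : K) ^ 3 * (γ : K) ^ 3 := by ring
        _ = 1 := by nth_rewrite 2 [h]; exact mul_inv_cancel₀ (pow_ne_zero 3 hγ0)
    have key : ∀ i j : Fin 3, i ≠ j → (A : Matrix (Fin 3) (Fin 3) K) i j = 0 := by
      intro i j hij
      have h10 := congrFun (congrFun h9 i) j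
      rw [Matrix.mul_diagonal, Matrix.diagonal_mul] at h10
      have hne : (![(γ : K) ^ 3, ((γ : K)⁻¹) ^ 3, 1] : Fin 3 → K) j ≠ (![(γ : K) ^ 3, ((γ : K)⁻¹) ^ 3, 1] : Fin 3 → K) i := by
        fin_cases i <;> fin_cases j
        · exact absurd rfl hij
        · exact n3.symm
        · exact n1.symm
        · exact n3
        · exact absurd rfl hij
        · exact n2.symm
        · exact n1
        · exact n2
        · exact absurd rfl hij
      have h11 : (A : Matrix (Fin 3) (Fin 3) K) i j * ((![(γ : K) ^ 3, ((γ : K)⁻¹) ^ 3, 1] : Fin 3 → K) j -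
          (![(γ : K) ^ 3, ((γ : K)⁻¹) ^ 3, 1] : Fin 3 → K) i) = 0 := by
        rw [mul_sub, h10]; ring
      exact (mul_eq_zero.1 h11).resolve_right (sub_ne_zero.2 hne)
    refine ⟨fun i => (A : Matrix (Fin 3) (Fin 3) K) i i, ?_⟩
    rw [coe_toG]
    ext i j
    rw [Matrix.diagonal_apply]
    split_ifs with hij
    · rw [hij]
    · exact key i j hij
  exact mul_mem (P.t1 A h8) ht

section Sub

variable {F : Subgroup (GL D.Idx K)} {a b c : ℕ}

/-- elements of `F ∩ N(T)` permute the roots in `S_F` -/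
theorem perm_SF (hD : InList D) (n : ↥(D.monomialSubgroup K)) (hn : (n : GL D.Idx K) ∈ F) {r : ℕ}
    (hr : r ∈ SF D K F) : (permHom hD K n ⟨r, hr.1⟩ : ℕ) ∈ SF D K F := by
  refine ⟨Fin.is_lt _, fun g hg => ?_⟩
  obtain ⟨t, rfl⟩ := (mem_rootSubgroup_iff hD _ _).1 hg
  obtain ⟨κ, hκ, e⟩ := H3.OT.conj_xG hD n ⟨r, hr.1⟩
  have h1 := e (κ⁻¹ * t)
  rw [mul_inv_cancel_left₀ hκ] at h1
  rw [← h1]
  exact mul_mem (mul_mem hn (hr.2 (xG_mem_rootSubgroup hD _ _))) (inv_mem hn)

/-- **The facts `SubF` for `S_F` an `A₂`.** -/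
theorem subF_A2 [Fintype K] {p : ℕ} [Fact p.Prime] [CharP K p] (h : Hyp K p D) (h2 : (2 : K) ≠ 0) (hF : MinBad D K F) (hA : IsA2 D a b c)
    (hS : SF D K F = {a, b, c, D.neg a, D.neg b, D.neg c})
    (hY : centralizer (H274.OT.Y0 D K F : Set (GL D.Idx K)) ⊓ D.group K ≤ DF D K F ⊔ D.diagonalSubgroup K) :
    H103.OT.SubF D K F := by
  have hD := h.inList
  have hK := h.card
  have hDF : DF D K F = DA D K a b c := DF_A2 hS
  have hne : (SF D K F).Nonempty := by rw [hS]; exact ⟨a, by simp⟩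
  refine ⟨?_, ?_, ?_, ?_, ?_, hY⟩
  · rw [hDF]
    exact DA_perfect hD hA
  · rw [hDF]
    intro N hN hn
    rcases DA_normal hD hA hN hn with h3 | h3
    · exact Or.inl h3.ge
    · exact Or.inr fun n hn d hd => (h3 n hn d hd).symm
  · intro x hx hx2
    obtain ⟨d, hd, n, hn, hn', rfl⟩ := (H274.OT.mem_MF h hF.le).1 hx
    have hnm : n ∈ D.monomialSubgroup K :=
      H3.OT.mem_monomial_of_norm hD (by rw [Nat.card_eq_fintype_card]; omega) (hF.le hn) hn'
    rw [hDF] at hd ⊢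
    refine Q2 hD hA h2 hd ⟨n, hnm⟩ (fun i j hij => ?_) fun y hy => ?_
    · have h3 : rt D a b c i j ∈ SF D K F := by
        rw [hS]
        fin_cases i <;> fin_cases j
        · exact absurd rfl hij
        · exact Or.inl rfl
        · exact Or.inr (Or.inr (Or.inl rfl))
        · exact Or.inr (Or.inr (Or.inr (Or.inl rfl)))
        · exact absurd rfl hij
        · exact Or.inr (Or.inl rfl)
        · exact Or.inr (Or.inr (Or.inr (Or.inr (Or.inr rfl))))
        · exact Or.inr (Or.inr (Or.inr (Or.inr (Or.inl rfl))))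
        · exact absurd rfl hij
      have h4 := perm_SF hD ⟨n, hnm⟩ hn h3
      rw [hS] at h4
      rcases h4 with h4 | h4 | h4 | h4 | h4 | h4
      · exact ⟨0, 1, by decide, h4⟩
      · exact ⟨1, 2, by decide, h4⟩
      · exact ⟨0, 2, by decide, h4⟩
      · exact ⟨1, 0, by decide, h4⟩
      · exact ⟨2, 1, by decide, h4⟩
      · exact ⟨2, 0, by decide, h4⟩
    · have h4 : y ∈ DF D K F := by rw [hDF]; exact hy
      exact ((mem_Zf.1 hx2).2 y (DF_le F h4)).symm
  · intro m hm hc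
    obtain ⟨π, P⟩ := exists_Pi (K := K) hD hA
    refine H175.OT.mem_normalizer_of_le fun t ht => ?_
    refine P.mem_tor_of_comm hK ?_ fun t₀ ht₀ ht₀' => ?_
    · have h3 := MF_norm h hF.le hm
      rw [hDF, sup_comm] at h3
      exact (mem_normalizer_iff.1 h3 t).1 (le_sup_right (a := DA D K a b c) ht)
    · rw [← hDF] at ht₀'
      have h3 : t₀ = m * t₀ * m⁻¹ := by rw [hc t₀ ht₀']; group
      have h4 : t * t₀ = t₀ * t := H460.OT.diag_comm hD ht ht₀
      calc m * t * m⁻¹ * t₀ = m * t * m⁻¹ * (m * t₀ * m⁻¹) := by rw [← h3]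
        _ = m * (t * t₀) * m⁻¹ := by group
        _ = m * (t₀ * t) * m⁻¹ := by rw [h4]
        _ = (m * t₀ * m⁻¹) * (m * t * m⁻¹) := by group
        _ = t₀ * (m * t * m⁻¹) := by rw [← h3]
  · intro g hg hn
    exact H175.OT.frattini_DF h hF hne hg (H175.OT.mem_normalizer_of_le hn)

/-- **`NsA2` for `S_F` an `A₂`.** -/
theorem nsA2_A2 (hD : InList D) (h2 : (2 : K) ≠ 0) (hA : IsA2 D a b c)
    (hS : SF D K F = {a, b, c, D.neg a, D.neg b, D.neg c}) : H103.OT.NsA2 D K F := by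
  intro x hx hx2
  rw [DF_A2 hS] at hx ⊢
  exact Q1 hD hA h2 hx fun y _ => by rw [hx2, one_mul, mul_one]

/-- the stronger form of `NsA2` -/
theorem nsA2_A2' (hD : InList D) (h2 : (2 : K) ≠ 0) (hA : IsA2 D a b c)
    (hS : SF D K F = {a, b, c, D.neg a, D.neg b, D.neg c}) {x : GL D.Idx K}
    (hx : x ∈ DF D K F ⊔ D.diagonalSubgroup K) (hx2 : ∀ y ∈ DF D K F, x ^ 2 * y = y * x ^ 2) :
    ∃ d ∈ DF D K F, d * x * d⁻¹ ∈ D.diagonalSubgroup K := by
  rw [DF_A2 hS] at hx hx2 ⊢
  exact Q1 hD hA h2 hx hx2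

end Sub

section F4

variable [Fintype K] {p : ℕ} [Fact p.Prime] [CharP K p] {F : Subgroup (GL chevF4.Idx K)} {a c d : ℕ}

/-- the two forms of the set of roots -/
theorem set_eq (hS : SF chevF4 K F = {a, chevF4.neg a, c, chevF4.neg c, d, chevF4.neg d}) :
    SF chevF4 K F = {a, d, c, chevF4.neg a, chevF4.neg d, chevF4.neg c} ∧
      SF chevF4 K F = {d, a, c, chevF4.neg d, chevF4.neg a, chevF4.neg c} := by
  rw [hS]
  constructor
  · ext x
    simp only [Set.mem_insert_iff, Set.mem_singleton_iff]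
    tauto
  · ext x
    simp only [Set.mem_insert_iff, Set.mem_singleton_iff]
    tauto

/-- **The facts `SubF` for a short `A₂` in `F₄`.** -/
theorem subA2 (h : Hyp K p chevF4) (hF : MinBad chevF4 K F) (hsh : ∀ r ∈ SF chevF4 K F, ¬ IsLong chevF4 r)
    (e : pr chevF4 a c = 1) (hd : chevF4.chainRoot (chevF4.neg a) c 1 = some d)
    (hS : SF chevF4 K F = {a, chevF4.neg a, c, chevF4.neg c, d, chevF4.neg d}) : H103.OT.SubF chevF4 K F := by
  have hD := h.inList
  have h2 := H175.OT.two_ne_zero' h (Or.inl rfl)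
  have ha : a ∈ SF chevF4 K F := by rw [hS]; simp
  have hc : c ∈ SF chevF4 K F := by rw [hS]; simp
  have hd' : d ∈ SF chevF4 K F := by rw [hS]; simp
  obtain ⟨S1, S2⟩ := set_eq hS
  have hadd : ∀ r, pr chevF4 r c = pr chevF4 r a + pr chevF4 r d := by
    intro r
    rw [H460.OT.Short.pr_add hD hd, H460.OT.Short.pr_neg_right hD ha.1]
    ring
  have had : pr chevF4 a d = -1 := by
    have h3 := hadd a
    rw [e, H428.OT.pr_self hD ha.1] at h3
    linarith
  have hcl : Closed chevF4 (SF chevF4 K F) := H650.OT.SF_closed h hF.le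
  have hSh : H460.OT.Short.Sh chevF4 (SF chevF4 K F) := ⟨fun r hr => hr.1, hcl, hsh⟩
  have hda : pr chevF4 d a = -1 := by
    have n1 : d ≠ a := by
      rintro rfl
      rw [H428.OT.pr_self hD ha.1] at had
      norm_num at had
    have n2 : d ≠ chevF4.neg a := by
      rintro rfl
      rw [H460.OT.Short.pr_neg_right hD ha.1, H428.OT.pr_self hD ha.1] at had
      norm_num at had
    rcases hSh.pairF ha hd' n1 n2 with ⟨h3, -⟩ | ⟨-, h3, -⟩
    · rw [had] at h3
      norm_num at h3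
    · exact h3
  have hY := H274.OT.cent_Y0_A2 (K := K) h.card (F := F) (a := a) (b := d) (c := c)
    (H460.OT.Short.nF ▸ ha.1) (H460.OT.Short.nF ▸ hd'.1) (H460.OT.Short.nF ▸ hc.1) had hda (fun r _ => hadd r) S1
  rcases isA2_short ha.1 (hsh a ha) (hsh c hc) e hd with hA | hA
  · exact subF_A2 h h2 hF hA S1 hY
  · exact subF_A2 h h2 hF hA S2 hY

/-- **`NsA2` for a short `A₂` in `F₄`.** -/
theorem nsA2 (h : Hyp K p chevF4) (hsh : ∀ r ∈ SF chevF4 K F, ¬ IsLong chevF4 r)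
    (e : pr chevF4 a c = 1) (hd : chevF4.chainRoot (chevF4.neg a) c 1 = some d)
    (hS : SF chevF4 K F = {a, chevF4.neg a, c, chevF4.neg c, d, chevF4.neg d}) : H103.OT.NsA2 chevF4 K F := by
  have h2 := H175.OT.two_ne_zero' h (Or.inl rfl)
  have ha : a ∈ SF chevF4 K F := by rw [hS]; simp
  have hc : c ∈ SF chevF4 K F := by rw [hS]; simp
  obtain ⟨S1, S2⟩ := set_eq hS
  rcases isA2_short ha.1 (hsh a ha) (hsh c hc) e hd with hA | hA
  · exact nsA2_A2 h.inList h2 hA S1
  · exact nsA2_A2 h.inList h2 hA S2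

/-- the form of `NsA2` used in `ns_A2` -/
theorem hQ_A2 (h : Hyp K p chevF4) (hsh : ∀ r ∈ SF chevF4 K F, ¬ IsLong chevF4 r)
    (e : pr chevF4 a c = 1) (hd : chevF4.chainRoot (chevF4.neg a) c 1 = some d)
    (hS : SF chevF4 K F = {a, chevF4.neg a, c, chevF4.neg c, d, chevF4.neg d}) :
    ∀ x ∈ DF chevF4 K F ⊔ chevF4.diagonalSubgroup K, (∀ d ∈ DF chevF4 K F, x ^ 2 * d = d * x ^ 2) →
      ∃ d ∈ DF chevF4 K F, d * x * d⁻¹ ∈ chevF4.diagonalSubgroup K := by
  have h2 := H175.OT.two_ne_zero' h (Or.inl rfl)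
  have ha : a ∈ SF chevF4 K F := by rw [hS]; simp
  have hc : c ∈ SF chevF4 K F := by rw [hS]; simp
  obtain ⟨S1, S2⟩ := set_eq hS
  intro x hx hx2
  rcases isA2_short ha.1 (hsh a ha) (hsh c hc) e hd with hA | hA
  · exact nsA2_A2' h.inList h2 hA S1 hx hx2
  · exact nsA2_A2' h.inList h2 hA S2 hx hx2

end F4

end Cfsg.Agent.H428.OT
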