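import Cfsg.Agent.H186.OT.LT

/-!
# The Laurent trick for subgroups of diagonal matrices (helper428), for S2539

* `dco e : Kˣ →* GL ι K`, `c ↦ diag (c ^ e i)`;
* `lau` : `T ≤ GL ι K` diagonal, `g ∈ GL ι K`, `g * dco e c * g⁻¹ ∈ N(T)` for all `c`, small window: then
  `g * dco e c * g⁻¹` centralises `T` for all `c`.
-/

set_option autoImplicit false

namespace Cfsg.Agent.H428.OT

open Cfsg.Agent.H186.OT
open scoped Matrix MatrixGroups

universe u v

variable {K : Type u} [Field K] {ι : Type v} [Fintype ι] [DecidableEq ι]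

/-- the one-parameter group `c ↦ diag (c ^ e i)` -/
def dco (e : ι → ℤ) : Kˣ →* GL ι K where
  toFun c :=
    { val := Matrix.diagonal fun i => ((c ^ e i : Kˣ) : K)
      inv := Matrix.diagonal fun i => (((c ^ e i)⁻¹ : Kˣ) : K)
      val_inv := by
        rw [Matrix.diagonal_mul_diagonal, ← Matrix.diagonal_one]
        congr 1
        funext i
        rw [← Units.val_mul, mul_inv_cancel, Units.val_one]
      inv_val := by
        rw [Matrix.diagonal_mul_diagonal, ← Matrix.diagonal_one]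
        congr 1
        funext i
        rw [← Units.val_mul, inv_mul_cancel, Units.val_one] }
  map_one' := by
    apply Units.ext
    show Matrix.diagonal (fun i => (((1 : Kˣ) ^ e i : Kˣ) : K)) = 1
    rw [← Matrix.diagonal_one]
    congr 1
    funext i
    rw [one_zpow, Units.val_one]
  map_mul' c d := by
    apply Units.ext
    show Matrix.diagonal (fun i => (((c * d) ^ e i : Kˣ) : K)) =
      Matrix.diagonal (fun i => ((c ^ e i : Kˣ) : K)) * Matrix.diagonal (fun i => ((d ^ e i : Kˣ) : K))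
    rw [Matrix.diagonal_mul_diagonal]
    congr 1
    funext i
    rw [mul_zpow, Units.val_mul]

theorem coe_dco (e : ι → ℤ) (c : Kˣ) :
    ((dco (K := K) e c : GL ι K) : Matrix ι ι K) = Matrix.diagonal fun i => ((c ^ e i : Kˣ) : K) := rfl

theorem dco_zero (c : Kˣ) : dco (K := K) (0 : ι → ℤ) c = 1 := by
  apply Units.ext
  rw [coe_dco, Units.val_one, ← Matrix.diagonal_one]
  congr 1
  funext i
  show ((c ^ (0 : ℤ) : Kˣ) : K) = 1
  rw [zpow_zero, Units.val_one]

theorem dco_add (e f : ι → ℤ) (c : Kˣ) : dco (K := K) (e + f) c = dco e c * dco f c := by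
  apply Units.ext
  rw [Units.val_mul, coe_dco, coe_dco, coe_dco, Matrix.diagonal_mul_diagonal]
  congr 1
  funext i
  rw [Pi.add_apply, zpow_add, Units.val_mul]

/-- the conjugated one-parameter group in `End V`, `V = K ^ ι` -/
noncomputable def lam (g : GL ι K) (e : ι → ℤ) : Kˣ →* Module.End K (ι → K) :=
  ((Matrix.toLinAlgEquiv' : Matrix ι ι K ≃ₐ[K] ((ι → K) →ₗ[K] (ι → K))) : Matrix ι ι K →* Module.End K (ι → K)).comp
    ((Units.coeHom (Matrix ι ι K)).comp ((MulAut.conj g).toMonoidHom.comp (dco e)))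

theorem lam_apply (g : GL ι K) (e : ι → ℤ) (c : Kˣ) (x : ι → K) :
    lam g e c x = ((g * dco e c * g⁻¹ : GL ι K) : Matrix ι ι K) *ᵥ x := rfl

/-- **The Laurent form of the matrix coefficients.** -/
theorem isLaurent_lam (g : GL ι K) {e : ι → ℤ} {a : ℤ} {D : ℕ} (he : ∀ i, a ≤ e i ∧ e i ≤ a + D)
    (φ : Module.Dual K (ι → K)) (x : ι → K) : IsLaurent a D (fun c => φ (lam g e c x)) := by
  set y : ι → K := ((g⁻¹ : GL ι K) : Matrix ι ι K) *ᵥ x with hy
  have key : ∀ c : Kˣ, φ (lam g e c x) =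
      ∑ j, ((c ^ e j : Kˣ) : K) * (y j * φ (((g : GL ι K) : Matrix ι ι K) *ᵥ Pi.single j 1)) := by
    intro c
    have h1 : lam g e c x = ∑ j, (((c ^ e j : Kˣ) : K) * y j) • (((g : GL ι K) : Matrix ι ι K) *ᵥ Pi.single j 1) := by
      rw [lam_apply, Units.val_mul, Units.val_mul, ← Matrix.mulVec_mulVec, ← Matrix.mulVec_mulVec, ← hy, coe_dco]
      have h2 : (Matrix.diagonal fun i => ((c ^ e i : Kˣ) : K)) *ᵥ y =
          ∑ j, (((c ^ e j : Kˣ) : K) * y j) • (Pi.single j (1 : K) : ι → K) := by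
        funext i
        rw [Matrix.mulVec_diagonal, Finset.sum_apply, Finset.sum_eq_single i]
        · rw [Pi.smul_apply, Pi.single_eq_same, smul_eq_mul, mul_one]
        · intro j _ hj
          rw [Pi.smul_apply, Pi.single_eq_of_ne (Ne.symm hj), smul_zero]
        · intro h
          exact absurd (Finset.mem_univ i) h
      rw [h2, Matrix.mulVec_sum]
      refine Finset.sum_congr rfl fun j _ => ?_
      rw [Matrix.mulVec_smul]
    rw [h1, map_sum]
    refine Finset.sum_congr rfl fun j _ => ?_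
    rw [map_smul, smul_eq_mul, mul_assoc]
  have h3 : (fun c => φ (lam g e c x)) = fun c : Kˣ =>
      ∑ j, ((c ^ e j : Kˣ) : K) * (y j * φ (((g : GL ι K) : Matrix ι ι K) *ᵥ Pi.single j 1)) := funext key
  rw [h3]
  exact IsLaurent.sum _ fun j _ => (IsLaurent.zpow (he j).1 (he j).2).mul_const _

section Wt

variable (T : Subgroup (GL ι K))

/-- the `i`-th weight of a group of diagonal matrices -/
def wt (i : ι) : ↥T → K := fun t => ((t : GL ι K) : Matrix ι ι K) i i

/-- the weight space of `χ` -/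
def wsp (χ : ↥T → K) : Submodule K (ι → K) where
  carrier := {v | ∀ t : ↥T, ((t : GL ι K) : Matrix ι ι K) *ᵥ v = χ t • v}
  zero_mem' := fun t => by rw [Matrix.mulVec_zero, smul_zero]
  add_mem' := fun {a b} ha hb t => by rw [Matrix.mulVec_add, ha t, hb t, smul_add]
  smul_mem' := fun c {a} ha t => by rw [Matrix.mulVec_smul, ha t, smul_comm]

theorem mem_wsp {χ : ↥T → K} {v : ι → K} :
    v ∈ wsp T χ ↔ ∀ t : ↥T, ((t : GL ι K) : Matrix ι ι K) *ᵥ v = χ t • v := Iff.rfl

variable {T}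

/-- all elements of `T` are diagonal matrices -/
def IsDiagSub (T : Subgroup (GL ι K)) : Prop :=
  ∀ t ∈ T, ∃ d : ι → K, ((t : GL ι K) : Matrix ι ι K) = Matrix.diagonal d

variable (hT : IsDiagSub T)

include hT

theorem coe_eq (t : ↥T) : ((t : GL ι K) : Matrix ι ι K) = Matrix.diagonal fun i => wt T i t := by
  obtain ⟨d, hd⟩ := hT t.1 t.2
  rw [hd]
  congr 1
  funext i
  show d i = ((t : GL ι K) : Matrix ι ι K) i i
  rw [hd, Matrix.diagonal_apply_eq]

theorem mem_wsp_iff {χ : ↥T → K} {v : ι → K} : v ∈ wsp T χ ↔ ∀ i, v i ≠ 0 → wt T i = χ := by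
  rw [mem_wsp]
  constructor
  · intro h i hi
    funext t
    have h1 := congrFun (h t) i
    rw [coe_eq hT t, Matrix.mulVec_diagonal, Pi.smul_apply, smul_eq_mul] at h1
    exact mul_right_cancel₀ hi h1
  · intro h t
    funext i
    rw [coe_eq hT t, Matrix.mulVec_diagonal, Pi.smul_apply, smul_eq_mul]
    by_cases hi : v i = 0
    · rw [hi, mul_zero, mul_zero]
    · rw [h i hi]

theorem single_mem_wsp (i : ι) (x : K) : (Pi.single i x : ι → K) ∈ wsp T (wt T i) := by
  rw [mem_wsp_iff hT]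
  intro j hj
  by_cases h : j = i
  · rw [h]
  · exact absurd (Pi.single_eq_of_ne h _) hj

theorem iSupIndep_wsp : iSupIndep fun χ : Set.range (wt T) => wsp T χ.1 := by
  intro χ
  rw [Submodule.disjoint_def]
  intro v hv hv'
  have h1 : (⨆ ψ : Set.range (wt T), ⨆ _ : ψ ≠ χ, wsp T ψ.1) ≤
      { carrier := {v | ∀ i, wt T i = χ.1 → v i = 0}
        zero_mem' := fun _ _ => rfl
        add_mem' := fun {a b} ha hb i hi => by rw [Pi.add_apply, ha i hi, hb i hi, add_zero]
        smul_mem' := fun c {a} ha i hi => by rw [Pi.smul_apply, ha i hi, smul_zero] } := by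
    refine iSup₂_le fun ψ hψ w hw i hi => ?_
    by_contra h0
    exact hψ (Subtype.ext (((mem_wsp_iff hT).1 hw i h0).symm.trans hi))
  funext i
  by_contra h0
  exact h0 (h1 hv' i ((mem_wsp_iff hT).1 hv i h0))

theorem wsp_ne_bot (χ : Set.range (wt T)) : wsp T χ.1 ≠ ⊥ := by
  obtain ⟨-, i, rfl⟩ := χ
  rw [Submodule.ne_bot_iff]
  exact ⟨_, single_mem_wsp hT i 1, by simp⟩

omit hT in
/-- the normaliser permutes the weight spaces -/
theorem map_wsp {n : GL ι K} (hn : n ∈ Subgroup.normalizer (T : Set (GL ι K))) (χ : ↥T → K) :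
    (wsp T χ).map (Matrix.toLin' (n : Matrix ι ι K)) =
      wsp T fun t => χ ⟨n⁻¹ * t * n, by
        have := (Subgroup.mem_normalizer_iff.1 (inv_mem hn) (t : GL ι K)).1 t.2
        rwa [inv_inv] at this⟩ := by
  ext v
  rw [Submodule.mem_map]
  constructor
  · rintro ⟨u, hu, rfl⟩ t
    rw [mem_wsp] at hu
    have h1 := hu ⟨n⁻¹ * t * n, by
        have := (Subgroup.mem_normalizer_iff.1 (inv_mem hn) (t : GL ι K)).1 t.2
        rwa [inv_inv] at this⟩
    rw [Matrix.toLin'_apply, ← Matrix.mulVec_smul, ← h1, Matrix.mulVec_mulVec, Matrix.mulVec_mulVec,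
      ← Units.val_mul, ← Units.val_mul]
    congr 2
    group
  · intro hv
    refine ⟨((n⁻¹ : GL ι K) : Matrix ι ι K) *ᵥ v, ?_, ?_⟩
    · intro t
      have ht : n * t * n⁻¹ ∈ T := (Subgroup.mem_normalizer_iff.1 hn (t : GL ι K)).1 t.2
      have h1 := hv ⟨n * t * n⁻¹, ht⟩
      have h2 : (⟨n⁻¹ * ((⟨n * t * n⁻¹, ht⟩ : ↥T) : GL ι K) * n, by
        have := (Subgroup.mem_normalizer_iff.1 (inv_mem hn) ((⟨n * t * n⁻¹, ht⟩ : ↥T) : GL ι K)).1 ht
        rwa [inv_inv] at this⟩ : ↥T) = t := by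
        apply Subtype.ext
        show n⁻¹ * (n * t * n⁻¹) * n = t
        group
      simp only [h2] at h1
      rw [← Matrix.mulVec_smul, ← h1, Matrix.mulVec_mulVec, Matrix.mulVec_mulVec, ← Units.val_mul, ← Units.val_mul]
      congr 2
      group
    · rw [Matrix.toLin'_apply, Matrix.mulVec_mulVec, ← Units.val_mul, mul_inv_cancel, Units.val_one,
        Matrix.one_mulVec]

theorem exists_map_wsp {n : GL ι K} (hn : n ∈ Subgroup.normalizer (T : Set (GL ι K))) (χ : Set.range (wt T)) :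
    ∃ ψ : Set.range (wt T), (wsp T χ.1).map (Matrix.toLin' (n : Matrix ι ι K)) = wsp T ψ.1 := by
  refine ⟨⟨_, ?_⟩, map_wsp hn χ.1⟩
  have h1 : (wsp T χ.1).map (Matrix.toLin' (n : Matrix ι ι K)) ≠ ⊥ := by
    intro h0
    apply wsp_ne_bot hT χ
    rw [Submodule.eq_bot_iff]
    intro v hv
    have h2 : Matrix.toLin' (n : Matrix ι ι K) v ∈ (⊥ : Submodule K (ι → K)) := h0 ▸ Submodule.mem_map_of_mem hv
    rw [Submodule.mem_bot, Matrix.toLin'_apply] at h2
    have h3 : ((n⁻¹ : GL ι K) : Matrix ι ι K) *ᵥ ((n : Matrix ι ι K) *ᵥ v) = 0 := by rw [h2, Matrix.mulVec_zero]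
    rwa [Matrix.mulVec_mulVec, ← Units.val_mul, inv_mul_cancel, Units.val_one, Matrix.one_mulVec] at h3
  rw [map_wsp hn] at h1
  obtain ⟨v, hv, hv0⟩ := (Submodule.ne_bot_iff _).1 h1
  obtain ⟨i, hi⟩ := Function.ne_iff.1 hv0
  exact ⟨i, (mem_wsp_iff hT).1 hv i hi⟩

/-- an element fixing all weight spaces centralises `T` -/
theorem comm_of_map_wsp {n : GL ι K}
    (h : ∀ χ : Set.range (wt T), (wsp T χ.1).map (Matrix.toLin' (n : Matrix ι ι K)) = wsp T χ.1) :
    ∀ t ∈ T, n * t = t * n := by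
  intro t ht
  apply Units.ext
  rw [Units.val_mul, Units.val_mul]
  apply Matrix.toLin'.injective
  apply (Pi.basisFun K ι).ext
  intro i
  rw [Pi.basisFun_apply, Matrix.toLin'_apply, Matrix.toLin'_apply, ← Matrix.mulVec_mulVec, ← Matrix.mulVec_mulVec]
  have h1 := (mem_wsp T).1 (single_mem_wsp hT i 1) ⟨t, ht⟩
  have h2 : (n : Matrix ι ι K) *ᵥ (Pi.single i 1 : ι → K) ∈ wsp T (wt T i) := by
    rw [← h ⟨wt T i, i, rfl⟩]
    exact Submodule.mem_map_of_mem (single_mem_wsp hT i 1)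
  rw [h1, Matrix.mulVec_smul, (mem_wsp T).1 h2 ⟨t, ht⟩]

/-- **The Laurent trick for groups of diagonal matrices.** -/
theorem lau [Fintype K] {a : ℤ} {D s : ℕ}
    (hs : ∀ d : ℕ, d ∣ Fintype.card K - 1 → d ≠ 1 → s ≤ d) (hD : s * D < (s - 1) * (Fintype.card K - 1))
    {e : ι → ℤ} (he : ∀ i, a ≤ e i ∧ e i ≤ a + D) (g : GL ι K)
    (hN : ∀ c, g * dco e c * g⁻¹ ∈ Subgroup.normalizer (T : Set (GL ι K))) (c : Kˣ) :
    ∀ t ∈ T, (g * dco e c * g⁻¹) * t = t * (g * dco e c * g⁻¹) := by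
  apply comm_of_map_wsp hT
  intro χ
  exact fix_of_laurent hs hD (lam g e) (isLaurent_lam g he) (fun χ : Set.range (wt T) => wsp T χ.1)
    (iSupIndep_wsp hT) (wsp_ne_bot hT) (fun c χ => exists_map_wsp hT (hN c) χ) c χ

end Wt

end Cfsg.Agent.H428.OT
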