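import Cfsg.Agent.H46.MSChev
import Cfsg.Agent.H460.OT.Short

/-!
# The short `A₂` in `F₄` (helper428), for S2539

`isA2_short` (Q0) : a closed pair of short roots of `F₄` gives a subsystem with structure constants one (`H46.MS.IsA2`).
-/

set_option autoImplicit false

namespace Cfsg.Agent.H428.OT

open Cfsg Cfsg.Lie Cfsg.Lie.ChevalleyDatum
open Cfsg.Agent.H412.OT Cfsg.Agent.H46.MS Cfsg.Agent.H460.OT.Short
open Cfsg.Agent.ChevalleyStructure.RootCombBase (allLt allLt_spec anyLt anyLt_spec ieq ieq_spec)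

def A2a (D : ChevalleyDatum) (a b c : ℕ) : Prop :=
  ∀ i j : Fin 3, i ≠ j → rt D a b c i j < D.nroots

def A2b (D : ChevalleyDatum) (a b c : ℕ) : Prop :=
  ∀ i j : Fin 3, i ≠ j → D.neg (rt D a b c i j) = rt D a b c j i

def A2c (D : ChevalleyDatum) (a b c : ℕ) : Prop :=
  ∀ i j k : Fin 3, (i ≠ j ∧ j ≠ k ∧ i ≠ k) → rt D a b c j k ≠ rt D a b c i j ∧
    rt D a b c j k ≠ D.neg (rt D a b c i j) ∧
      D.commTerms (rt D a b c i j) (rt D a b c j k) = [(rt D a b c i k, 1, 1, 1)]

def A2d (D : ChevalleyDatum) (a b c : ℕ) : Prop :=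
  ∀ i j k l : Fin 3, (i ≠ j ∧ k ≠ l ∧ j ≠ k ∧ i ≠ l) → rt D a b c i j = rt D a b c k l ∨
    (rt D a b c k l ≠ rt D a b c i j ∧ rt D a b c k l ≠ D.neg (rt D a b c i j) ∧
      D.commTerms (rt D a b c i j) (rt D a b c k l) = [])

instance (D : ChevalleyDatum) (a b c : ℕ) : Decidable (A2a D a b c) := by
  unfold A2a; infer_instance

instance (D : ChevalleyDatum) (a b c : ℕ) : Decidable (A2b D a b c) := by
  unfold A2b; infer_instance

instance (D : ChevalleyDatum) (a b c : ℕ) : Decidable (A2c D a b c) := by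
  unfold A2c; infer_instance

instance (D : ChevalleyDatum) (a b c : ℕ) : Decidable (A2d D a b c) := by
  unfold A2d; infer_instance

instance decA2 (D : ChevalleyDatum) (a b c : ℕ) : Decidable (IsA2 D a b c) :=
  decidable_of_iff (A2a D a b c ∧ A2c D a b c ∧ A2b D a b c ∧ A2d D a b c)
    ⟨fun h => ⟨h.1, h.2.2.1, h.2.2.2, h.2.1⟩, fun h => ⟨h.1, h.4, h.2, h.3⟩⟩

/-- the check of the row `a` -/
def chkR (a : ℕ) : Bool :=
  or (lT lF a) (allLt (fun c => or (lT lF c) (or (not (Nat.beq (pT pF 48 a c) 4))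
    (or (decide (IsA2 chevF4 a ((chevF4.chainRoot (chevF4.neg a) c 1).getD 63) c))
      (decide (IsA2 chevF4 ((chevF4.chainRoot (chevF4.neg a) c 1).getD 63) a c))))) 48)

/-- the rows `s, …, s + m - 1` (memory of the kernel: one theorem for a few rows) -/
def chkS (s m : ℕ) : Bool := allLt (fun a => chkR (s + a)) m

theorem chkS_0 : chkS 0 4 = true := by decide +kernel

theorem chkS_1 : chkS 4 4 = true := by decide +kernel

theorem chkS_2 : chkS 8 4 = true := by decide +kernel

theorem chkS_3 : chkS 12 4 = true := by decide +kernel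

theorem chkS_4 : chkS 16 4 = true := by decide +kernel

theorem chkS_5 : chkS 20 4 = true := by decide +kernel

theorem chkS_6 : chkS 24 4 = true := by decide +kernel

theorem chkS_7 : chkS 28 4 = true := by decide +kernel

theorem chkS_8 : chkS 32 4 = true := by decide +kernel

theorem chkS_9 : chkS 36 4 = true := by decide +kernel

theorem chkS_10 : chkS 40 4 = true := by decide +kernel

theorem chkS_11 : chkS 44 4 = true := by decide +kernel

theorem chkR_of {s m a : ℕ} (h : chkS s m = true) (h1 : s ≤ a) (h2 : a < s + m) : chkR a = true := by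
  have h3 : chkR (s + (a - s)) = true := allLt_spec (P := fun a => chkR (s + a)) h (a - s) (by omega)
  rwa [Nat.add_sub_cancel' h1] at h3

theorem chkR_ok {a : ℕ} (ha : a < 48) : chkR a = true := by
  by_cases h0 : a < 4
  · exact chkR_of chkS_0 (Nat.zero_le _) (by omega)
  by_cases h1 : a < 8
  · exact chkR_of chkS_1 (by omega) (by omega)
  by_cases h2 : a < 12
  · exact chkR_of chkS_2 (by omega) (by omega)
  by_cases h3 : a < 16
  · exact chkR_of chkS_3 (by omega) (by omega)
  by_cases h4 : a < 20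
  · exact chkR_of chkS_4 (by omega) (by omega)
  by_cases h5 : a < 24
  · exact chkR_of chkS_5 (by omega) (by omega)
  by_cases h6 : a < 28
  · exact chkR_of chkS_6 (by omega) (by omega)
  by_cases h7 : a < 32
  · exact chkR_of chkS_7 (by omega) (by omega)
  by_cases h8 : a < 36
  · exact chkR_of chkS_8 (by omega) (by omega)
  by_cases h9 : a < 40
  · exact chkR_of chkS_9 (by omega) (by omega)
  by_cases h10 : a < 44
  · exact chkR_of chkS_10 (by omega) (by omega)
  exact chkR_of chkS_11 (by omega) (by omega)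

/-- **(Q0)** the short `A₂` in `F₄` -/
theorem isA2_short {a c d : ℕ} (ha : a < chevF4.nroots) (h1 : ¬ IsLong chevF4 a) (h2 : ¬ IsLong chevF4 c)
    (e : pr chevF4 a c = 1) (hd : chevF4.chainRoot (chevF4.neg a) c 1 = some d) :
    IsA2 chevF4 a d c ∨ IsA2 chevF4 d a c := by
  have hc := (chainRoot_lt inF hd).2.1
  rw [nF] at ha hc
  have hh := chkR_ok ha
  unfold chkR at hh
  simp only [Bool.or_eq_true] at hh
  have hh := allLt_spec (hh.resolve_left fun h => h1 ((l_spec chkL_F4 ha).1 h)) c hc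
  simp only [Bool.or_eq_true] at hh
  have hh := hh.resolve_left fun h => h2 ((l_spec chkL_F4 hc).1 h)
  have h3 : pT pF 48 a c = 4 := by
    have h4 := p_spec chkP_F4 ha hc
    rw [e] at h4
    exact_mod_cast h4
  rw [h3, hd] at hh
  simpa using hh

end Cfsg.Agent.H428.OT
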